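import Cfsg.Agent.H715.DPU.Def
import Cfsg.Agent.H715.PDU.Cent
import Cfsg.Agent.H953.Rank

/-!
# S4247, row PSU: tasks F2 and F3 (helper478)

The eigenvalues `≠ 1` of an element of the frame over the algebraic closure are `w ^ ((-q) ^ k)`.

* `pow_of_conj` (F2): `h (z i) h⁻¹ = (z i) ^ j` implies that `j` is a power of `-q` modulo `t`.
* `even_of_semi` (F3): if a semilinear map for `x ↦ x ^ q` commutes with `z i`, then the order of `-q` modulo `t` is even.
-/

set_option autoImplicit false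

namespace Cfsg.Agent.H478.DPU

open Subgroup Cfsg Matrix Module Cfsg.Agent.H988.CPi Cfsg.Agent.H571.RV Cfsg.Agent.H817.DPi Cfsg.Agent.H380.RV
  Cfsg.Agent.H553.RV Cfsg.Agent.H167.OP Cfsg.Agent.H170.HL Cfsg.Agent.H556.HallRowAbs Cfsg.Agent.H715.DPU
open Cfsg.Agent.ClassicalGeometry.PSUAutCount (gm)
open Cfsg.Agent.H715.PDU (exists_eig_ne_one IsOrd isOrd_of pow_ne_zero_vec zpow_step exists_frob cast_pow)

variable {F : Type*} [Field F] {q n t : ℕ}

/-- the matrix over the algebraic closure -/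
noncomputable def Mg (g : GU n F q) : Matrix (Fin n) (Fin n) (AlgebraicClosure F) :=
  (gm g).map (algebraMap F (AlgebraicClosure F))

theorem gm_one : gm (1 : GU n F q) = 1 := rfl

theorem Mg_mul (g h : GU n F q) : Mg (g * h) = Mg g * Mg h := by
  rw [Mg, ClassicalGeometry.PSUAutCount.gm_mul, Matrix.map_mul]
  rfl

theorem Mg_one : Mg (1 : GU n F q) = 1 := by
  rw [Mg, gm_one]
  exact Matrix.map_one _ (map_zero _) (map_one _)

theorem Mg_pow (g : GU n F q) (j : ℕ) : Mg (g ^ j) = Mg g ^ j := by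
  induction j with
  | zero => rw [pow_zero, pow_zero, Mg_one]
  | succ j ih => rw [pow_succ, pow_succ, Mg_mul, ih]

theorem Mg_injective : Function.Injective (Mg : GU n F q → _) := by
  intro g h hgh
  have h1 : gm g = gm h := Matrix.map_injective (algebraMap F (AlgebraicClosure F)).injective hgh
  exact Subtype.ext (Units.ext h1)

theorem Mg_inv_mulVec (g : GU n F q) (e : Fin n → AlgebraicClosure F) : Mg g⁻¹ *ᵥ (Mg g *ᵥ e) = e := by
  rw [mulVec_mulVec, ← Mg_mul, inv_mul_cancel, Mg_one, one_mulVec]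

theorem eig_ne_zero {g : GU n F q} {e : Fin n → AlgebraicClosure F} (he : e ≠ 0) {c : AlgebraicClosure F}
    (h : Mg g *ᵥ e = c • e) : c ≠ 0 := by
  rintro rfl
  rw [zero_smul] at h
  apply he
  rw [← Mg_inv_mulVec g e, h, mulVec_zero]

/-- `c` is an eigenvalue of `g` -/
def Ev (g : GU n F q) (c : AlgebraicClosure F) : Prop := ∃ e : Fin n → AlgebraicClosure F, e ≠ 0 ∧ Mg g *ᵥ e = c • e

theorem ev_conj {g h : GU n F q} {c : AlgebraicClosure F} (hc : Ev (h * g * h⁻¹) c) : Ev g c := by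
  obtain ⟨e, he, heq⟩ := hc
  refine ⟨Mg h⁻¹ *ᵥ e, fun h0 => he ?_, ?_⟩
  · have h1 := Mg_inv_mulVec h⁻¹ e
    rw [h0, mulVec_zero] at h1
    exact h1.symm
  · have h1 : g * h⁻¹ = h⁻¹ * (h * g * h⁻¹) := by group
    rw [mulVec_mulVec, ← Mg_mul, h1, Mg_mul, ← mulVec_mulVec, heq, mulVec_smul]

theorem ev_pow {g : GU n F q} {c : AlgebraicClosure F} (hc : Ev g c) (j : ℕ) : Ev (g ^ j) (c ^ j) := by
  obtain ⟨e, he, heq⟩ := hc
  refine ⟨e, he, ?_⟩
  induction j with
  | zero => rw [pow_zero, Mg_one, one_mulVec, pow_zero, one_smul]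
  | succ j ih => rw [pow_succ, Mg_mul, ← mulVec_mulVec, heq, mulVec_smul, ih, smul_smul, pow_succ']

variable [Fintype F]

/-- **Duality.** -/
theorem dual (hF : Fintype.card F = q ^ 2) {g : GU n F q} {e : Fin n → AlgebraicClosure F}
    {c : AlgebraicClosure F} (hc : c ≠ 0) (h : Mg g *ᵥ e = c • e) :
    (Mg g)ᵀ *ᵥ (fun i => e i ^ q) = (c ^ q)⁻¹ • fun i => e i ^ q := by
  obtain ⟨Fr, hFr⟩ := exists_frob (F := F) hF
  have h1 : (Mg g)ᵀ * (Mg g).map Fr = 1 := by
    have h2 := (Cfsg.Agent.LieClassical.GUOrder.mul_map_eq_one_iff hF (gm g)).1 (fun u v => g.2 u v)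
    have h3 := congrArg (fun M => M.map (algebraMap F (AlgebraicClosure F))) h2
    beta_reduce at h3
    rw [Matrix.map_mul, Matrix.map_one _ (map_zero _) (map_one _)] at h3
    rw [← h3, Mg]
    congr 1
    ext i j
    rw [Matrix.map_apply, Matrix.map_apply, Matrix.map_apply, Matrix.map_apply, hFr, ← map_pow]
    rfl
  have h2 : (Mg g).map Fr *ᵥ (fun i => e i ^ q) = c ^ q • fun i => e i ^ q := by
    funext i
    have h3 := RingHom.map_mulVec Fr (Mg g) e i
    rw [h, Pi.smul_apply, smul_eq_mul, map_mul, hFr, hFr] at h3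
    have h4 : (Fr ∘ e) = fun i => e i ^ q := by
      funext i
      exact hFr _
    rw [h4] at h3
    exact h3.symm
  have h3 : (Mg g)ᵀ *ᵥ ((Mg g).map Fr *ᵥ (fun i => e i ^ q)) = fun i => e i ^ q := by
    rw [mulVec_mulVec, h1, one_mulVec]
  rw [h2, mulVec_smul] at h3
  have hcq : c ^ q ≠ 0 := pow_ne_zero _ hc
  have h4 := congrArg (fun v => (c ^ q)⁻¹ • v) h3
  beta_reduce at h4
  rw [smul_smul, inv_mul_cancel₀ hcq, one_smul] at h4
  exact h4

/-- the eigenvalues are closed under `θ ↦ θ ^ (-q)` -/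
theorem ev_step (hF : Fintype.card F = q ^ 2) {g : GU n F q} {θ : AlgebraicClosure F} (h : Ev g θ) :
    Ev g (θ ^ q)⁻¹ := by
  obtain ⟨e, he, heθ⟩ := h
  have hθ := eig_ne_zero he heθ
  have h1 := dual hF hθ heθ
  have h2 : ∃ v : Fin n → AlgebraicClosure F, v ≠ 0 ∧
      ((Mg g)ᵀ - (θ ^ q)⁻¹ • (1 : Matrix (Fin n) (Fin n) (AlgebraicClosure F))) *ᵥ v = 0 := by
    refine ⟨fun i => e i ^ q, pow_ne_zero_vec he, ?_⟩
    rw [sub_mulVec, h1, smul_mulVec, one_mulVec, sub_self]
  rw [Matrix.exists_mulVec_eq_zero_iff] at h2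
  have h3 : (Mg g - (θ ^ q)⁻¹ • (1 : Matrix (Fin n) (Fin n) (AlgebraicClosure F))).det = 0 := by
    rw [← det_transpose, transpose_sub, transpose_smul, transpose_one]
    exact h2
  rw [← Matrix.exists_mulVec_eq_zero_iff] at h3
  obtain ⟨v, hv, hv1⟩ := h3
  rw [sub_mulVec, smul_mulVec, one_mulVec, sub_eq_zero] at hv1
  exact ⟨v, hv, hv1⟩

theorem ev_iter (hF : Fintype.card F = q ^ 2) {g : GU n F q} {θ : AlgebraicClosure F} (h : Ev g θ) (m : ℕ) :
    Ev g (θ ^ ((-(q : ℤ)) ^ m)) := by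
  induction m with
  | zero => simpa using h
  | succ m ih =>
    have h1 := ev_step hF ih
    rwa [zpow_step] at h1

omit [Fintype F] in
theorem Mg_eq_one {g : GU n F q} (h : Mg g = 1) : g = 1 := Mg_injective (h.trans Mg_one.symm)

omit [Fintype F] in
/-- the rank over the algebraic closure -/
theorem finrank_range (g : GU n F q) :
    finrank (AlgebraicClosure F) (LinearMap.range (Matrix.toLin' (Mg g - 1))) = rk (rU n F q) g := by
  have h1 : Mg g - 1 = (gm g - 1).map (algebraMap F (AlgebraicClosure F)) := by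
    rw [Mg]
    ext i j
    rw [Matrix.sub_apply, Matrix.map_apply, Matrix.map_apply, Matrix.sub_apply, map_sub, Matrix.one_apply,
      Matrix.one_apply]
    split_ifs <;> simp
  have h2 := Cfsg.Agent.H953.rank_map (algebraMap F (AlgebraicClosure F)) (gm g - 1)
  rw [← h1] at h2
  have h3 : finrank (AlgebraicClosure F) (LinearMap.range (Matrix.toLin' (Mg g - 1))) = (Mg g - 1).rank := rfl
  rw [h3, h2]
  have h4 : (Matrix.mulVecLin (gm g - 1)) = rU n F q g - 1 := by
    ext v i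
    simp [rep, gm, incU]
  change finrank F (LinearMap.range (Matrix.mulVecLin (gm g - 1))) = finrank F (LinearMap.range (rU n F q g - 1))
  rw [h4]

/-- **The list of the eigenvalues `≠ 1`.** -/
theorem ev_list (hF : Fintype.card F = q ^ 2) (ht : t.Prime) (htF : (t : F) ≠ 0) {z : GU n F q}
    (hz : IsZ (rU n F q) (eU q) t z) {w : AlgebraicClosure F} (hw : Ev z w) (hw1 : w ≠ 1) (hwt : w ^ t = 1)
    {μ : AlgebraicClosure F} (hμ : Ev z μ) (hμ1 : μ ≠ 1) : ∃ k : ℕ, μ = w ^ ((-(q : ℤ)) ^ k) := by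
  by_contra hcon
  push Not at hcon
  have := Fact.mk ht
  have hord : IsOrd t w := isOrd_of ht hw1 hwt
  have hw0 := hord.ne_zero ht
  set d := eU q t with hd
  let ν : Option (Fin d) → AlgebraicClosure F := fun o => o.elim μ (fun k => w ^ ((-(q : ℤ)) ^ (k : ℕ)))
  have hν : Function.Injective ν := by
    intro a b hab
    rcases a with _ | a <;> rcases b with _ | b
    · rfl
    · exact absurd hab (hcon b)
    · exact absurd hab.symm (hcon a)
    · have h1 : w ^ ((-(q : ℤ)) ^ (a : ℕ)) = w ^ ((-(q : ℤ)) ^ (b : ℕ)) := hab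
      rw [hord.pow_eq hw0, cast_pow, cast_pow] at h1
      have h2 := pow_injOn_Iio_orderOf (x := -(q : ZMod t)) (x₁ := (a : ℕ)) (x₂ := (b : ℕ)) (by rw [Set.mem_Iio]; exact a.2)
        (by rw [Set.mem_Iio]; exact b.2) h1
      rw [Fin.ext h2]
  have hev : ∀ o, Ev z (ν o) := by
    intro o
    rcases o with _ | k
    · exact hμ
    · exact ev_iter hF hw k
  have hne1 : ∀ o, ν o ≠ 1 := by
    intro o
    rcases o with _ | k
    · exact hμ1
    · intro h1
      have h1' : w ^ ((-(q : ℤ)) ^ (k : ℕ)) = 1 := h1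
      rw [hord] at h1'
      have h2 := (ZMod.intCast_zmod_eq_zero_iff_dvd _ t).2 h1'
      rw [cast_pow] at h2
      exact q_ne hF ht htF (eq_zero_of_pow_eq_zero h2)
  choose b hb0 hb using hev
  have hLI : LinearIndependent (AlgebraicClosure F) b := by
    refine Module.End.eigenvectors_linearIndependent' (Matrix.toLin' (Mg z)) ν hν b fun o => ?_
    rw [Module.End.hasEigenvector_iff, Module.End.mem_eigenspace_iff, Matrix.toLin'_apply]
    exact ⟨hb o, hb0 o⟩
  have hmem : ∀ o, b o ∈ LinearMap.range (Matrix.toLin' (Mg z - 1)) := by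
    intro o
    refine ⟨(ν o - 1)⁻¹ • b o, ?_⟩
    rw [Matrix.toLin'_apply, mulVec_smul, sub_mulVec, one_mulVec, hb o]
    nth_rewrite 2 [← one_smul (AlgebraicClosure F) (b o)]
    rw [← sub_smul, smul_smul, inv_mul_cancel₀ (sub_ne_zero.2 (hne1 o)), one_smul]
  have hcard := LinearIndependent.fintype_card_le_finrank
    (b := fun o => (⟨b o, hmem o⟩ : LinearMap.range (Matrix.toLin' (Mg z - 1))))
    (LinearIndependent.of_comp (LinearMap.range (Matrix.toLin' (Mg z - 1))).subtype hLI)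
  rw [finrank_range, hz.2, Fintype.card_option, Fintype.card_fin] at hcard
  exact absurd hcard (by rw [← hd]; omega)

/-- an eigenvalue `≠ 1` -/
theorem exists_ev (hF : Fintype.card F = q ^ 2) (ht : t.Prime) (htF : (t : F) ≠ 0) {z : GU n F q}
    (hz : IsZ (rU n F q) (eU q) t z) : ∃ w : AlgebraicClosure F, Ev z w ∧ w ≠ 1 ∧ w ^ t = 1 := by
  have hl0 : (t : AlgebraicClosure F) ≠ 0 := by
    intro h0
    apply htF
    apply (algebraMap F (AlgebraicClosure F)).injective
    rw [map_natCast, h0, map_zero]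
  have hz1 : z ≠ 1 := by
    rintro rfl
    have h1 := hz.2
    have h2 : rk (rU n F q) (1 : GU n F q) = 0 := by
      rw [rk, map_one, sub_self, LinearMap.range_zero, finrank_bot]
    have h3 := Cfsg.Agent.H556.HallOrd.order_pos ht (q_ne hF ht htF)
    exact h3.ne (h2.symm.trans h1)
  obtain ⟨θ, hθ1, hθt, hev⟩ := exists_eig_ne_one (Y := Mg z) hl0 (by rw [← Mg_pow, hz.1, Mg_one])
    (fun h0 => hz1 (Mg_eq_one h0))
  exact ⟨θ, hev, hθ1, hθt⟩

/-- Task F2: conjugates of `z i`. -/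
theorem pow_of_conj {F : Type} [Field F] [Fintype F] {n q a t : ℕ} (hF : Fintype.card F = q ^ 2)
    {H : Subgroup (GU n F q)} {z : Fin a → GU n F q} (hz : Fr q H t a z) (h : GU n F q) (i : Fin a) (j : ℕ)
    (hj : h * z i * h⁻¹ = z i ^ j) : ∃ k : ℕ, (j : ZMod t) = (-(q : ZMod t)) ^ k := by
  have ht := hz.ht
  have := Fact.mk ht
  have hi := hz.fm.isZ i
  obtain ⟨w, hw, hw1, hwt⟩ := exists_ev hF ht hz.ne hi
  have hord : IsOrd t w := isOrd_of ht hw1 hwt
  have hw0 := hord.ne_zero ht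
  have h1 : Ev (z i) (w ^ j) := ev_conj (h := h) (hj ▸ ev_pow hw j)
  have h2 : w ^ j ≠ 1 := by
    intro h3
    rw [← zpow_natCast, hord] at h3
    have h4 : t ∣ j := Int.natCast_dvd_natCast.1 h3
    have h5 : z i ^ j = 1 := by
      obtain ⟨c, rfl⟩ := h4
      rw [pow_mul, hi.1, one_pow]
    rw [h5, mul_inv_eq_one] at hj
    have h6 : z i = 1 := mul_eq_left.1 hj
    obtain ⟨e, he, heq⟩ := hw
    rw [h6, Mg_one, one_mulVec] at heq
    have h7 : (w - 1) • e = 0 := by rw [sub_smul, ← heq, one_smul, sub_self]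
    rcases smul_eq_zero.1 h7 with h8 | h8
    · exact hw1 (sub_eq_zero.1 h8)
    · exact he h8
  obtain ⟨k, hk⟩ := ev_list hF ht hz.ne hi hw hw1 hwt h1 h2
  refine ⟨k, ?_⟩
  rw [← zpow_natCast, hord.pow_eq hw0, cast_pow, Int.cast_natCast] at hk
  exact hk

/-- Task F3: semilinear maps commuting with `z i`. -/
theorem even_of_semi {F : Type} [Field F] [Fintype F] {n q a t : ℕ} (hF : Fintype.card F = q ^ 2)
    {H : Subgroup (GU n F q)} {z : Fin a → GU n F q} (hz : Fr q H t a z) (i : Fin a) (A : GU n F q) (τ : F ≃+* F)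
    (hτ : ∀ x, τ x = x ^ q)
    (hA : ∀ v : Fin n → F, gm (z i) *ᵥ (gm A *ᵥ fun j => τ (v j)) = gm A *ᵥ fun j => τ ((gm (z i) *ᵥ v) j)) :
    Even (eU q t) := by
  have ht := hz.ht
  have := Fact.mk ht
  have hi := hz.fm.isZ i
  obtain ⟨w, hw, hw1, hwt⟩ := exists_ev hF ht hz.ne hi
  have hord : IsOrd t w := isOrd_of ht hw1 hwt
  have hw0 := hord.ne_zero ht
  have hqne := q_ne hF ht hz.ne
  obtain ⟨Fr, hFr⟩ := exists_frob (F := F) hF
  -- the matrix identity
  have h1 : gm (z i) * gm A = gm A * (gm (z i)).map τ := by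
    apply Matrix.ext_of_mulVec_single
    intro j
    have h2 := hA (Pi.single j 1)
    have h3 : (fun k => τ ((Pi.single j (1 : F) : Fin n → F) k)) = Pi.single j 1 := by
      funext k
      by_cases hk : k = j
      · subst hk; simp
      · simp [Pi.single_eq_of_ne hk]
    have h4 : (fun k => τ ((gm (z i) *ᵥ (Pi.single j (1 : F) : Fin n → F)) k)) =
        (gm (z i)).map τ *ᵥ (Pi.single j (1 : F) : Fin n → F) := by
      funext k
      rw [Matrix.mulVec_single_one, Matrix.mulVec_single_one]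
      rfl
    rw [h3, h4, mulVec_mulVec, mulVec_mulVec] at h2
    exact h2
  have h2 : Mg (z i) * Mg A = Mg A * (Mg (z i)).map Fr := by
    have h3 := congrArg (fun M => M.map (algebraMap F (AlgebraicClosure F))) h1
    beta_reduce at h3
    rw [Matrix.map_mul, Matrix.map_mul] at h3
    refine h3.trans ?_
    congr 1
    ext k l
    rw [Matrix.map_apply, Matrix.map_apply, Matrix.map_apply, hFr, hτ, map_pow]
    rfl
  obtain ⟨e, he, heq⟩ := hw
  have h3 : (Mg (z i)).map Fr *ᵥ (fun i => e i ^ q) = w ^ q • fun i => e i ^ q := by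
    funext k
    have h4 := RingHom.map_mulVec Fr (Mg (z i)) e k
    rw [heq, Pi.smul_apply, smul_eq_mul, map_mul, hFr, hFr] at h4
    have h5 : (Fr ∘ e) = fun i => e i ^ q := by
      funext i
      exact hFr _
    rw [h5] at h4
    exact h4.symm
  have h4 : Ev (z i) (w ^ q) := by
    refine ⟨Mg A *ᵥ (fun i => e i ^ q), fun h0 => ?_, ?_⟩
    · have h5 := Mg_inv_mulVec A (fun i => e i ^ q)
      rw [h0, mulVec_zero] at h5
      exact pow_ne_zero_vec he h5.symm
    · rw [mulVec_mulVec, h2, ← mulVec_mulVec, h3, mulVec_smul]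
  have h5 : w ^ q ≠ 1 := by
    intro h6
    rw [← zpow_natCast, hord] at h6
    have h7 : t ∣ q := Int.natCast_dvd_natCast.1 h6
    exact hqne (by rw [(ZMod.natCast_eq_zero_iff q t).2 h7, neg_zero])
  obtain ⟨k, hk⟩ := ev_list hF ht hz.ne hi ⟨e, he, heq⟩ hw1 hwt h4 h5
  rw [← zpow_natCast, hord.pow_eq hw0, cast_pow, Int.cast_natCast] at hk
  -- `q = (-q) ^ k`
  by_contra hodd
  rw [Nat.not_even_iff_odd] at hodd
  have h6 : (-(q : ZMod t)) ^ (eU q t) = 1 := pow_orderOf_eq_one _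
  have h7 : (q : ZMod t) ^ (eU q t) = 1 := by rw [hk, ← pow_mul, mul_comm, pow_mul, h6, one_pow]
  rw [hodd.neg_pow, h7] at h6
  have h8 : ((2 : ℕ) : ZMod t) = 0 := by
    have h9 : (1 : ZMod t) + 1 = 0 := by nth_rewrite 2 [← h6]; ring
    rw [← h9]; norm_num
  rw [ZMod.natCast_eq_zero_iff] at h8
  have h9 := (Nat.prime_dvd_prime_iff_eq ht Nat.prime_two).1 h8
  have h10 := hz.odd
  rw [h9] at h10
  exact absurd h10 (by decide)

end Cfsg.Agent.H478.DPU
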